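import Mathlib
import Cfsg.Agent.S2202
import Cfsg.Agent.S1225
import Cfsg.Agent.Lib.Helper30.CTIStmt

set_option autoImplicit false

/-!
helper55: piece FINAL of helper30's S4064 call: with `M` abelian, all involution centralizers
are conjugates of `M`, so S2202 applies; the cyclic and normal Sylow cases are impossible and the
third case is ENDG.
-/

namespace Cfsg.Agent.Lib.Helper55.CTIFINAL

universe u

open Cfsg.Agent.Lib.Helper30.CTIStmt

theorem main : FINAL.{u} := by
  intro hENDG G _ _ M V hcen hnsol hsimple hcc hse huex hvex hMab hV hVk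
  classical
  obtain ⟨u, hu2, huH⟩ := huex
  obtain ⟨v, hvM, hv2⟩ := hvex
  obtain ⟨k, hk2, hVc⟩ := hVk
  have hv1 : v ≠ 1 := by
    rintro rfl
    rw [orderOf_one] at hv2
    exact absurd hv2 (by norm_num)
  have hMH : M ≤ NM M := Subgroup.le_normalizer
  -- all involutions are conjugate
  have hconj := (Cfsg.Agent.S1225.result (NM M) hse u hu2 huH v v hv2 (hMH hvM) hv2 (hMH hvM)).2
  -- involution centralizers are commutative
  have hcomm : ∀ t : G, orderOf t = 2 →
      IsMulCommutative ↥(Subgroup.centralizer ({t} : Set G)) := by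
    intro t ht
    obtain ⟨g, hg⟩ := isConj_iff.mp (hconj v t hv2 ht)
    have key : ∀ x ∈ Subgroup.centralizer ({t} : Set G), g⁻¹ * x * g ∈ M := by
      intro x hx
      apply hcc v hvM hv1
      rw [Subgroup.mem_centralizer_iff]
      intro h hh
      rw [Set.mem_singleton_iff] at hh
      subst hh
      have hxt : t * x = x * t := Subgroup.mem_centralizer_iff.mp hx t rfl
      rw [← hg] at hxt
      calc h * (g⁻¹ * x * g) = g⁻¹ * (g * h * g⁻¹ * x) * g := by group
        _ = g⁻¹ * (x * (g * h * g⁻¹)) * g := by rw [hxt]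
        _ = g⁻¹ * x * g * h := by group
    refine isMulCommutative_iff.mpr (fun a b => ?_)
    apply Subtype.ext
    have h1 := hMab _ (key a a.2) _ (key b b.2)
    have h2 : (a : G) * (b : G) = g * ((g⁻¹ * a * g) * (g⁻¹ * b * g)) * g⁻¹ := by group
    have h3 : (b : G) * (a : G) = g * ((g⁻¹ * b * g) * (g⁻¹ * a * g)) * g⁻¹ := by group
    show (a : G) * (b : G) = (b : G) * (a : G)
    rw [h2, h3, h1]
  have heven : Even (Nat.card G) := by
    rw [even_iff_two_dvd, ← hv2]; exact orderOf_dvd_natCard v
  -- `V` is a 2-group of exponent 2 and order at least 4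
  have hVp : IsPGroup 2 V := IsPGroup.of_card hVc
  obtain ⟨P, hVP⟩ := hVp.exists_le_sylow
  have hV4 : 4 ≤ Nat.card V := by
    rw [hVc]
    calc 4 = 2 ^ 2 := by norm_num
      _ ≤ 2 ^ k := Nat.pow_le_pow_right (by norm_num) hk2
  have hVexp : ∀ y ∈ V, y ^ 2 = 1 := fun y hy => ((hV y).mp hy).2
  rcases Cfsg.Agent.S2202.result heven hcomm with hcyc | hnorm | hSL
  · -- cyclic Sylow 2-subgroups
    exfalso
    have hPc : IsCyclic ↥(P : Subgroup G) := hcyc P
    have hVcyc : IsCyclic V :=
      isCyclic_of_injective (Subgroup.inclusion hVP) (Subgroup.inclusion_injective hVP)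
    have := Fintype.ofFinite V
    have h1 := IsCyclic.card_pow_eq_one_le (α := V) (n := 2) (by norm_num)
    have h2 : (Finset.univ.filter (fun a : V => a ^ 2 = 1)) = Finset.univ := by
      apply Finset.filter_true_of_mem
      intro a _
      exact Subtype.ext (by simpa using hVexp a a.2)
    rw [h2, Finset.card_univ, ← Nat.card_eq_fintype_card] at h1
    omega
  · -- normal Sylow 2-subgroups
    exfalso
    have hPn : (P : Subgroup G).Normal := hnorm P
    rcases hPn.eq_bot_or_eq_top with hbot | htop
    · have : Nat.card V ≤ Nat.card (P : Subgroup G) := Subgroup.card_le_of_le hVP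
      rw [hbot, Subgroup.card_bot] at this
      omega
    · apply hnsol
      have hP2 : IsPGroup 2 G := by
        have h := P.isPGroup'
        rw [htop] at h
        exact h.of_equiv Subgroup.topEquiv
      have : Fact (Nat.Prime 2) := ⟨Nat.prime_two⟩
      have hnil : Group.IsNilpotent G := hP2.isNilpotent
      infer_instance
  · -- `SL₂(F) × A`
    apply hENDG G hcen _ hSL
    calc 4 = 2 ^ 2 := by norm_num
      _ ∣ 2 ^ k := pow_dvd_pow 2 hk2
      _ = Nat.card V := hVc.symm
      _ ∣ Nat.card G := Subgroup.card_subgroup_dvd_card V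

end Cfsg.Agent.Lib.Helper55.CTIFINAL
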