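import Mathlib
import Cfsg.Agent.Lib.Helper55.ClassSize

/-!
Centreless groups whose nontrivial class sizes `n` all divide a number `m` with cofactor
`m / n ≠ 1` a `π`-number or a `π'`-number (both kinds of primes occurring in `m`) have
order `m`.  (Used for: same class sizes as a group with disconnected prime graph.)
-/

set_option autoImplicit false

namespace Cfsg.Agent.Lib.Helper55.ClassOrder

open Subgroup Cfsg.Agent.Lib.Helper55.ClassSize

variable {G : Type*} [Group G] [Finite G]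

/-- each nontrivial class size divides `m`, with cofactor `≠ 1` a `π`- or a `π'`-number -/
def Typed (G : Type*) [Group G] (m : ℕ) (π : Set ℕ) : Prop :=
  ∀ x : G, x ≠ 1 → cs x ∣ m ∧ (IsPi π (m / cs x) ∨ IsPi πᶜ (m / cs x)) ∧ m / cs x ≠ 1

omit [Finite G] in
theorem Typed.compl {m : ℕ} {π : Set ℕ} (h : Typed G m π) : Typed G m πᶜ := by
  intro x hx
  obtain ⟨h1, h2, h3⟩ := h x hx
  refine ⟨h1, ?_, h3⟩
  rw [compl_compl]
  exact h2.symm

theorem card_centralizer {m k : ℕ} (hG : Nat.card G = m * k) {x : G} (hx : cs x ∣ m) :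
    Nat.card (centralizer ({x} : Set G)) = (m / cs x) * k := by
  have h1 : Nat.card (centralizer ({x} : Set G)) * cs x = Nat.card G := card_mul_index _
  have h2 : cs x * (m / cs x) = m := Nat.mul_div_cancel' hx
  have h3 : Nat.card (centralizer ({x} : Set G)) * cs x = ((m / cs x) * k) * cs x := by
    rw [h1, hG]
    calc m * k = (cs x * (m / cs x)) * k := by rw [h2]
      _ = ((m / cs x) * k) * cs x := by ring
  exact Nat.eq_of_mul_eq_mul_right (cs_pos x) h3

theorem type_of_comm {m : ℕ} {π : Set ℕ} (ht : Typed G m π) {x y : G} (hx : x ≠ 1)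
    (hxy : x * y = y * x) (hcop : (orderOf x).Coprime (orderOf y))
    (hy : IsPi πᶜ (m / cs y)) : IsPi πᶜ (m / cs x) := by
  have hne : x * y ≠ 1 := by
    intro h
    have hx' : x = y⁻¹ := eq_inv_of_mul_eq_one_left h
    have e : orderOf x = orderOf y := by rw [hx', orderOf_inv]
    rw [e, Nat.coprime_self] at hcop
    rw [hcop] at e
    exact hx (orderOf_eq_one_iff.1 e)
  have hx1 : x ^ orderOf x ∈ center G := by
    rw [pow_orderOf_eq_one]
    exact one_mem _
  have hy1 : y ^ orderOf y ∈ center G := by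
    rw [pow_orderOf_eq_one]
    exact one_mem _
  have d1 : cs x ∣ cs (x * y) := index_dvd_of_le (centralizer_mul_le hxy hx1 hy1 hcop)
  have d2 : cs y ∣ cs (x * y) := by
    rw [hxy]
    exact index_dvd_of_le (centralizer_mul_le hxy.symm hy1 hx1 hcop.symm)
  obtain ⟨a1, a2, a3⟩ := ht (x * y) hne
  obtain ⟨-, b2, -⟩ := ht x hx
  have e1 : m / cs (x * y) ∣ m / cs x := Nat.div_dvd_div_left a1 d1
  have e2 : m / cs (x * y) ∣ m / cs y := Nat.div_dvd_div_left a1 d2
  have hxyB : IsPi πᶜ (m / cs (x * y)) := by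
    rcases a2 with h | h
    · exact absurd (IsPi.eq_one_of_dvd h hy dvd_rfl e2) a3
    · exact h
  rcases b2 with h | h
  · exact absurd (IsPi.eq_one_of_dvd h hxyB e1 dvd_rfl) a3
  · exact h

theorem exists_central {p : ℕ} [Fact p.Prime] {Q : Subgroup G} (hQ : IsPGroup p Q)
    (hne : Q ≠ ⊥) : ∃ z ∈ Q, z ≠ 1 ∧ ∀ g ∈ Q, g * z = z * g := by
  have : Nontrivial Q := (Subgroup.nontrivial_iff_ne_bot Q).2 hne
  have h := hQ.bot_lt_center
  obtain ⟨z, hz, hz1⟩ := SetLike.exists_of_lt h
  refine ⟨(z : G), z.2, ?_, ?_⟩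
  · intro h1
    apply hz1
    rw [mem_bot]
    exact Subtype.ext h1
  · intro g hg
    have := mem_center_iff.1 hz ⟨g, hg⟩
    exact congrArg Subtype.val this

theorem not_dvd_cs_of_central {s : ℕ} [Fact s.Prime] (T : Sylow s G) {z : G}
    (hz : ∀ g ∈ (T : Subgroup G), g * z = z * g) : ¬ s ∣ cs z := by
  intro h
  have hle : (T : Subgroup G) ≤ centralizer ({z} : Set G) := fun g hg => mem_cent.2 (hz g hg)
  exact T.not_dvd_index (h.trans (index_dvd_of_le hle))

theorem exists_sylow_ne_bot {p : ℕ} [Fact p.Prime] (h : p ∣ Nat.card G) :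
    ∃ P : Sylow p G, (P : Subgroup G) ≠ ⊥ := by
  obtain ⟨x, hx⟩ := exists_prime_orderOf_dvd_card' p h
  have hpg : IsPGroup p (zpowers x) :=
    Cfsg.Agent.Lib.Helper69.PNil.isPGroup_zpowers x ⟨1, by rw [hx, pow_one]⟩
  obtain ⟨P, hP⟩ := hpg.exists_le_sylow
  refine ⟨P, ?_⟩
  intro hbot
  have hxP : x ∈ (P : Subgroup G) := hP (mem_zpowers x)
  rw [hbot, mem_bot] at hxP
  rw [hxP, orderOf_one] at hx
  exact (Fact.out : p.Prime).one_lt.ne hx

/-- an excess prime `s ∈ π` of `|G| / m` cannot divide `m` -/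
theorem not_dvd_of_excess {m k : ℕ} {π : Set ℕ} (hG : Nat.card G = m * k) (ht : Typed G m π)
    {s : ℕ} (hs : s.Prime) (hsk : s ∣ k) (hsπ : s ∈ π) {b : ℕ} (hb : b.Prime) (hbπ : b ∉ π)
    (hbm : b ∣ m) : ¬ s ∣ m := by
  have : Fact s.Prime := ⟨hs⟩
  have : Fact b.Prime := ⟨hb⟩
  have hsb : s ≠ b := fun h => hbπ (h ▸ hsπ)
  obtain ⟨R, hRne⟩ := exists_sylow_ne_bot (p := b) (G := G) (by rw [hG]; exact hbm.mul_right k)
  obtain ⟨y, hyR, hy1, hyc⟩ := exists_central R.2 hRne
  obtain ⟨jy, hjy⟩ :=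
    Cfsg.Agent.Lib.Helper69.PNil.pElem_of_mem_isPGroup (R : Subgroup G) R.2 y hyR
  obtain ⟨y1, y2, -⟩ := ht y hy1
  have hyB : IsPi πᶜ (m / cs y) := by
    rcases y2 with h | h
    · exfalso
      have hbcs : ¬ b ∣ cs y := not_dvd_cs_of_central R hyc
      have hbc : ¬ b ∣ m / cs y := fun hd => hbπ (h b hb hd)
      have h3 : b ∣ cs y * (m / cs y) := by
        rw [Nat.mul_div_cancel' y1]
        exact hbm
      rcases (Nat.Prime.dvd_mul hb).1 h3 with h' | h'
      · exact hbcs h'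
      · exact hbc h'
    · exact h
  have hCy : Nat.card (centralizer ({y} : Set G)) = (m / cs y) * k := card_centralizer hG y1
  have hsCy : s ∣ Nat.card (centralizer ({y} : Set G)) := by
    rw [hCy]
    exact hsk.mul_left _
  obtain ⟨S0, hS0ne⟩ := exists_sylow_ne_bot (p := s) (G := centralizer ({y} : Set G)) hsCy
  have hS'p : IsPGroup s ((S0 : Subgroup (centralizer ({y} : Set G))).map
      (centralizer ({y} : Set G)).subtype) := S0.2.map _
  have hS'le : (S0 : Subgroup (centralizer ({y} : Set G))).map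
      (centralizer ({y} : Set G)).subtype ≤ centralizer ({y} : Set G) := map_subtype_le _
  have hS'card : Nat.card ((S0 : Subgroup (centralizer ({y} : Set G))).map
      (centralizer ({y} : Set G)).subtype) = s ^ ((m / cs y) * k).factorization s := by
    rw [Subgroup.card_map_of_injective (Subgroup.subtype_injective _), S0.card_eq_multiplicity,
      hCy]
  have hS'ne : (S0 : Subgroup (centralizer ({y} : Set G))).map
      (centralizer ({y} : Set G)).subtype ≠ ⊥ := by
    intro h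
    apply hS0ne
    exact (map_eq_bot_iff_of_injective _ (Subgroup.subtype_injective _)).1 h
  have hS'type : ∀ w ∈ (S0 : Subgroup (centralizer ({y} : Set G))).map
      (centralizer ({y} : Set G)).subtype, w ≠ 1 → IsPi πᶜ (m / cs w) := by
    intro w hw hw1
    obtain ⟨jw, hjw⟩ := Cfsg.Agent.Lib.Helper69.PNil.pElem_of_mem_isPGroup _ hS'p w hw
    apply type_of_comm ht hw1 (mem_cent.1 (hS'le hw)) ?_ hyB
    rw [hjw, hjy]
    exact Nat.Coprime.pow _ _ ((Nat.coprime_primes hs hb).2 hsb)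
  obtain ⟨w, hwS, hw1, hwc⟩ := exists_central hS'p hS'ne
  have hwB := hS'type w hwS hw1
  obtain ⟨w1', -, -⟩ := ht w hw1
  have hCw : Nat.card (centralizer ({w} : Set G)) = (m / cs w) * k := card_centralizer hG w1'
  obtain ⟨T, hT⟩ := hS'p.exists_le_sylow
  have hTne : (T : Subgroup G) ≠ ⊥ := fun h => hS'ne (le_bot_iff.1 (h ▸ hT))
  obtain ⟨z, hzT, hz1, hzc⟩ := exists_central T.2 hTne
  have hQle : (S0 : Subgroup (centralizer ({y} : Set G))).map
      (centralizer ({y} : Set G)).subtype ≤ (T : Subgroup G) ⊓ centralizer ({w} : Set G) :=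
    le_inf hT (fun g hg => mem_cent.2 (hwc g hg))
  have hzQ : z ∈ (T : Subgroup G) ⊓ centralizer ({w} : Set G) :=
    mem_inf.2 ⟨hzT, mem_cent.2 (hzc w (hT hwS)).symm⟩
  have hQcard : Nat.card ((T : Subgroup G) ⊓ centralizer ({w} : Set G) : Subgroup G) ≤
      Nat.card ((S0 : Subgroup (centralizer ({y} : Set G))).map
        (centralizer ({y} : Set G)).subtype) := by
    have hQp : IsPGroup s ((T : Subgroup G) ⊓ centralizer ({w} : Set G) : Subgroup G) :=
      T.2.to_le inf_le_left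
    obtain ⟨j, hj⟩ := hQp.exists_card_eq
    have hdvd : s ^ j ∣ (m / cs w) * k := by
      rw [← hj, ← hCw]
      exact card_dvd_of_le inf_le_right
    have hsw : ¬ s ∣ m / cs w := fun hd => (hwB s hs hd) hsπ
    have hdk : s ^ j ∣ k :=
      (Nat.Coprime.pow_left j ((Nat.Prime.coprime_iff_not_dvd hs).2 hsw)).dvd_of_dvd_mul_left hdvd
    have hdk' : s ^ j ∣ (m / cs y) * k := hdk.mul_left _
    have hne0 : (m / cs y) * k ≠ 0 := by
      rw [← hCy]
      exact Nat.card_pos.ne'
    have hjle : j ≤ ((m / cs y) * k).factorization s :=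
      (hs.pow_dvd_iff_le_factorization hne0).1 hdk'
    rw [hj, hS'card]
    exact Nat.pow_le_pow_right hs.pos hjle
  have hQeq := eq_of_le_of_card_ge hQle hQcard
  have hzS : z ∈ (S0 : Subgroup (centralizer ({y} : Set G))).map
      (centralizer ({y} : Set G)).subtype := by
    rw [hQeq]
    exact hzQ
  have hzB := hS'type z hzS hz1
  obtain ⟨z1, -, -⟩ := ht z hz1
  intro hsm
  have hscs : ¬ s ∣ cs z := not_dvd_cs_of_central T hzc
  have hsc : ¬ s ∣ m / cs z := fun hd => (hzB s hs hd) hsπ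
  have h3 : s ∣ cs z * (m / cs z) := by
    rw [Nat.mul_div_cancel' z1]
    exact hsm
  rcases (Nat.Prime.dvd_mul hs).1 h3 with h' | h'
  · exact hscs h'
  · exact hsc h'

/-- a centreless typed group has order `m` -/
theorem card_eq_of_typed {m : ℕ} {π : Set ℕ} (hZ : center G = ⊥) (ht : Typed G m π)
    (hmG : m ∣ Nat.card G) {a b : ℕ} (ha : a.Prime) (haπ : a ∈ π) (ham : a ∣ m) (hb : b.Prime)
    (hbπ : b ∉ π) (hbm : b ∣ m) : Nat.card G = m := by
  obtain ⟨k, hk⟩ := hmG
  by_contra hne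
  have hk1 : k ≠ 1 := by
    rintro rfl
    exact hne (by rw [hk, mul_one])
  obtain ⟨s, hs, hsk⟩ := Nat.exists_prime_and_dvd hk1
  have hsm : ¬ s ∣ m := by
    by_cases hsπ : s ∈ π
    · exact not_dvd_of_excess hk ht hs hsk hsπ hb hbπ hbm
    · exact not_dvd_of_excess hk ht.compl hs hsk hsπ ha (fun h => h haπ) ham
  have : Fact s.Prime := ⟨hs⟩
  obtain ⟨S, hSne⟩ := exists_sylow_ne_bot (p := s) (G := G) (by rw [hk]; exact hsk.mul_left m)
  have htop : centralizer ((S : Subgroup G) : Set G) = ⊤ := by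
    apply Cfsg.Agent.Lib.Helper69.PNil.eq_top_of_forall_conj_mem
    intro x
    apply Cfsg.Agent.Lib.Helper69.Conj.exists_conj_mem_centralizer_sylow S
    intro hd
    by_cases hx : x = 1
    · have hd' : s ∣ cs x := hd
      rw [hx, cs_one] at hd'
      exact hs.one_lt.ne' (Nat.dvd_one.1 hd')
    · exact hsm (hd.trans (ht x hx).1)
  apply hSne
  rw [eq_bot_iff]
  intro g hg
  have hgc : g ∈ center G := by
    rw [mem_center_iff]
    intro x
    have hx : x ∈ centralizer ((S : Subgroup G) : Set G) := by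
      rw [htop]
      exact mem_top x
    exact (mem_centralizer_iff.1 hx g hg).symm
  rw [hZ] at hgc
  exact hgc

end Cfsg.Agent.Lib.Helper55.ClassOrder
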