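import Mathlib
import Cfsg.Agent.Lib.Helper44.GFStmt
import Cfsg.Agent.Lib.Helper55.GFField

set_option autoImplicit false

/-! S2717 piece CH (helper44's split): `CharTwoIff`. -/

namespace Cfsg.Agent.Lib.Helper55.GFCH

universe u

theorem main : Cfsg.Agent.Lib.Helper44.GFStmt.CharTwoIff.{u} := by
  intro F _ _ p f hp hc
  exact Cfsg.Agent.Lib.Helper55.GFField.char_two_iff F p f hp hc

end Cfsg.Agent.Lib.Helper55.GFCH
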