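import Mathlib
import Cfsg.Agent.Lib.Helper44.GFStmt
import Cfsg.Agent.Lib.Helper55.GFField

set_option autoImplicit false

/-! S2717 piece NQ (helper44's split): `NonsqQuot`. -/

namespace Cfsg.Agent.Lib.Helper55.GFNQ

universe u

theorem main : Cfsg.Agent.Lib.Helper44.GFStmt.NonsqQuot.{u} := by
  intro F₀ _ _ h2 x y hx0 hx hy
  exact Cfsg.Agent.Lib.Helper55.GFField.nonsq_quot F₀ h2 x y hx0 hx hy

end Cfsg.Agent.Lib.Helper55.GFNQ
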