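import Mathlib
import Cfsg.Agent.Lib.Helper44.GFStmt
import Cfsg.Agent.Lib.Helper55.GFField

set_option autoImplicit false

/-! S2717 piece NT (helper44's split): `SquareCrit`. -/

namespace Cfsg.Agent.Lib.Helper55.GFNT

universe u

theorem main : Cfsg.Agent.Lib.Helper44.GFStmt.SquareCrit.{u} := by
  intro F _ _ h2 σ hσ c κ ν n hν hns hc hκ
  exact Cfsg.Agent.Lib.Helper55.GFField.square_crit F h2 σ hσ c κ ν n hν hns hc hκ

end Cfsg.Agent.Lib.Helper55.GFNT
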