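import Mathlib
import Cfsg.Agent.Lib.Helper69.ItoB
import Cfsg.Agent.Lib.Helper69.PNil
import Cfsg.Agent.Lib.Helper2.Frob

set_option autoImplicit false

namespace Cfsg.Agent.Lib.Helper55.RelIto

open Cfsg.Agent.Lib.Helper69

variable {G : Type*} [Group G]

local notation "Cz(" x ")" => Subgroup.centralizer ({x} : Set _)

/-- A subgroup of the centre is normal. -/
theorem normal_of_le_center {K : Subgroup G} (hK : K ≤ Subgroup.center G) : K.Normal := by
  refine ⟨fun k hk g => ?_⟩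
  have e : g * k * g⁻¹ = k := by
    have := Subgroup.mem_center_iff.1 (hK hk) g
    rw [this]; group
  rw [e]; exact hk

theorem centralizer_le_pow (x : G) (n : ℕ) : Cz(x) ≤ Cz(x ^ n) := by
  intro g hg
  rw [Small.mem_centralizer_singleton_iff] at hg ⊢
  have hc : Commute x g := hg
  exact hc.pow_left n

theorem conj_mem_centralizer_conj {c v : G} (g : G) (hv : v ∈ Cz(c)) :
    g * v * g⁻¹ ∈ Cz(g * c * g⁻¹) := by
  rw [Small.mem_centralizer_singleton_iff] at hv ⊢
  calc g * c * g⁻¹ * (g * v * g⁻¹) = g * (c * v) * g⁻¹ := by group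
    _ = g * (v * c) * g⁻¹ := by rw [hv]
    _ = g * v * g⁻¹ * (g * c * g⁻¹) := by group

/-- `Good N w`: every noncentral element of `N` in `C(w)` has centralizer `C(w)`. -/
def Good (N : Subgroup G) (w : G) : Prop :=
  ∀ x ∈ N, x ∈ Cz(w) → x ∉ Subgroup.center G → Cz(x) = Cz(w)

theorem Good.comm {N : Subgroup G} {w : G} (hg : Good N w) :
    ∀ a ∈ (Cz(w) ⊓ N : Subgroup G), ∀ b ∈ (Cz(w) ⊓ N : Subgroup G), a * b = b * a := by
  rintro a ⟨haC, haN⟩ b ⟨hbC, hbN⟩
  by_cases haZ : a ∈ Subgroup.center G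
  · exact (Subgroup.mem_center_iff.1 haZ b).symm
  · have := hg a haN haC haZ
    rw [← this] at hbC
    exact Small.mem_centralizer_singleton_iff.1 hbC

theorem Good.of_eq {N : Subgroup G} {w w' : G} (hg : Good N w) (he : Cz(w) = Cz(w')) :
    Good N w' := by
  intro x hxN hxC hxZ
  rw [← he] at hxC ⊢
  exact hg x hxN hxC hxZ

theorem center_comm : ∀ a ∈ (Subgroup.center G), ∀ b ∈ (Subgroup.center G), a * b = b * a :=
  fun a ha b _ => (Subgroup.mem_center_iff.1 ha b).symm

theorem inf_center_comm (N : Subgroup G) :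
    ∀ a ∈ (N ⊓ Subgroup.center G : Subgroup G), ∀ b ∈ (N ⊓ Subgroup.center G : Subgroup G),
      a * b = b * a :=
  fun a ha b _ => (Subgroup.mem_center_iff.1 ha.2 b).symm

section Basic

variable [Finite G] {N : Subgroup G} {m : ℕ}

theorem index_eq
    (h : ∀ x ∈ N, (Subgroup.centralizer ({x} : Set G)).index = 1 ∨
      (Subgroup.centralizer ({x} : Set G)).index = m)
    {x : G} (hxN : x ∈ N) (hx : x ∉ Subgroup.center G) : Cz(x).index = m :=
  (h x hxN).resolve_left (fun h1 => hx (Small.mem_center_of_index_eq_one h1))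

theorem m_pos
    (h : ∀ x ∈ N, (Subgroup.centralizer ({x} : Set G)).index = 1 ∨
      (Subgroup.centralizer ({x} : Set G)).index = m)
    {x : G} (hxN : x ∈ N) (hx : x ∉ Subgroup.center G) : 0 < m := by
  rw [← index_eq h hxN hx]
  exact Nat.pos_of_ne_zero Subgroup.index_ne_zero_of_finite

theorem card_mul
    (h : ∀ x ∈ N, (Subgroup.centralizer ({x} : Set G)).index = 1 ∨
      (Subgroup.centralizer ({x} : Set G)).index = m)
    {x : G} (hxN : x ∈ N) (hx : x ∉ Subgroup.center G) :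
    Nat.card Cz(x) * m = Nat.card G := by
  rw [← index_eq h hxN hx]
  exact Subgroup.card_mul_index _

theorem card_eq
    (h : ∀ x ∈ N, (Subgroup.centralizer ({x} : Set G)).index = 1 ∨
      (Subgroup.centralizer ({x} : Set G)).index = m)
    {x y : G} (hxN : x ∈ N) (hx : x ∉ Subgroup.center G) (hyN : y ∈ N)
    (hy : y ∉ Subgroup.center G) : Nat.card Cz(x) = Nat.card Cz(y) :=
  Nat.eq_of_mul_eq_mul_right (m_pos h hxN hx) ((card_mul h hxN hx).trans (card_mul h hyN hy).symm)

theorem eq_of_le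
    (h : ∀ x ∈ N, (Subgroup.centralizer ({x} : Set G)).index = 1 ∨
      (Subgroup.centralizer ({x} : Set G)).index = m)
    {x y : G} (hxN : x ∈ N) (hx : x ∉ Subgroup.center G) (hyN : y ∈ N)
    (hy : y ∉ Subgroup.center G) (hle : Cz(x) ≤ Cz(y)) : Cz(x) = Cz(y) :=
  Subgroup.eq_of_le_of_card_ge hle (card_eq h hxN hx hyN hy).ge

/-- L1: commuting noncentral elements of `N` of coprime orders have the same centralizer. -/
theorem centralizer_eq_of_coprime
    (h : ∀ x ∈ N, (Subgroup.centralizer ({x} : Set G)).index = 1 ∨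
      (Subgroup.centralizer ({x} : Set G)).index = m)
    {x y : G} (hxN : x ∈ N) (hx : x ∉ Subgroup.center G) (hyN : y ∈ N)
    (hy : y ∉ Subgroup.center G) (hxy : Commute x y)
    (hcop : (orderOf x).Coprime (orderOf y)) : Cz(x) = Cz(y) := by
  have hxyZ : x * y ∉ Subgroup.center G := by
    intro hmem
    obtain ⟨k, hk⟩ := ItoA.exists_pow_eq_left x y hxy hcop
    apply hx
    rw [← hk]
    exact Subgroup.pow_mem _ hmem k
  have hxyN : x * y ∈ N := N.mul_mem hxN hyN
  have hc := ItoA.centralizer_mul_of_coprime x y hxy hcop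
  have e1 : Cz(x * y) = Cz(x) := eq_of_le h hxyN hxyZ hxN hx (by rw [hc]; exact inf_le_left)
  have e2 : Cz(x * y) = Cz(y) := eq_of_le h hxyN hxyZ hyN hy (by rw [hc]; exact inf_le_right)
  rw [← e1, e2]

/-- F2 -/
theorem good_of_commute
    (h : ∀ x ∈ N, (Subgroup.centralizer ({x} : Set G)).index = 1 ∨
      (Subgroup.centralizer ({x} : Set G)).index = m)
    (r : ℕ) [hr : Fact r.Prime] {c y : G} (hcN : c ∈ N) (hc : c ∉ Subgroup.center G)
    (hcr : ∃ k : ℕ, orderOf c = r ^ k) (hyN : y ∈ N) (hy : y ∉ Subgroup.center G)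
    (hyr : (orderOf y).Coprime r) (hcy : Commute c y) : Good N c := by
  obtain ⟨k, hk⟩ := hcr
  have hCy : Cz(c) = Cz(y) := centralizer_eq_of_coprime h hcN hc hyN hy hcy
    (by rw [hk]; exact Nat.Coprime.pow_left _ hyr.symm)
  intro x hxN hxC hxZ
  obtain ⟨a, b, ⟨j, hj⟩, hcop, hab⟩ := PNil.exists_pow_decomp r x
  have hle_a : Cz(x) ≤ Cz(x ^ a) := centralizer_le_pow x a
  have hle_b : Cz(x) ≤ Cz(x ^ b) := centralizer_le_pow x b
  by_cases hb : x ^ b ∈ Subgroup.center G
  · have ha : x ^ a ∉ Subgroup.center G := by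
      intro ha
      apply hxZ
      rw [← hab]
      exact Subgroup.mul_mem _ ha hb
    have hxy : x ∈ Cz(y) := by rw [← hCy]; exact hxC
    have hcomm : Commute (x ^ a) y := by
      have : Commute y x := Small.mem_centralizer_singleton_iff.1 hxy
      exact (this.pow_right a).symm
    have e := centralizer_eq_of_coprime h (N.pow_mem hxN a) ha hyN hy hcomm
      (by rw [hj]; exact Nat.Coprime.pow_left _ hyr.symm)
    exact eq_of_le h hxN hxZ hcN hc (by rw [hCy, ← e]; exact hle_a)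
  · have hcomm : Commute (x ^ b) c := by
      have : Commute c x := Small.mem_centralizer_singleton_iff.1 hxC
      exact (this.pow_right b).symm
    have e := centralizer_eq_of_coprime h (N.pow_mem hxN b) hb hcN hc hcomm
      (by rw [hk]; exact Nat.Coprime.pow_right _ hcop)
    exact eq_of_le h hxN hxZ hcN hc (by rw [← e]; exact hle_b)

/-- all `r`-elements lie in `N` -/
theorem mem_of_rElt (r : ℕ) [Fact r.Prime] (R : Sylow r G) [N.Normal]
    (hRN : (R : Subgroup G) ≤ N) {c : G} (hc : ∃ k : ℕ, orderOf c = r ^ k) : c ∈ N := by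
  obtain ⟨k, hk⟩ := Cfsg.Agent.Lib.Helper53.SylowConj.exists_conj_le_sylow_top
    (Subgroup.zpowers c) (PNil.isPGroup_zpowers c hc) R
  have h1 : k * c * k⁻¹ ∈ N := hRN (hk c (Subgroup.mem_zpowers c))
  have h2 := ‹N.Normal›.conj_mem _ h1 k⁻¹
  have e : k⁻¹ * (k * c * k⁻¹) * k⁻¹⁻¹ = c := by group
  rwa [e] at h2

/-- an `r`-element outside a central `r`-subgroup `K` of `H` forces `|K| < |H|_r`. -/
theorem card_lt_of_rElt_not_mem (r : ℕ) [hr : Fact r.Prime] (H K : Subgroup G)
    (hK : IsPGroup r K) (hKZ : K ≤ Subgroup.center G) (hKH : K ≤ H) {c : G} (hcH : c ∈ H)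
    (hcr : ∃ k : ℕ, orderOf c = r ^ k) (hcK : c ∉ K) :
    Nat.card K < r ^ (Nat.card H).factorization r := by
  haveI : K.Normal := normal_of_le_center hKZ
  have hJ : IsPGroup r (Subgroup.zpowers c ⊔ K : Subgroup G) :=
    IsPGroup.to_sup_of_normal_right (PNil.isPGroup_zpowers c hcr) hK
  have hJH : Subgroup.zpowers c ⊔ K ≤ H :=
    sup_le (by rw [Subgroup.zpowers_le]; exact hcH) hKH
  obtain ⟨j, hj⟩ := IsPGroup.iff_card.1 hJ
  have h1 : r ^ j ∣ Nat.card H := by rw [← hj]; exact Subgroup.card_dvd_of_le hJH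
  have h2 : j ≤ (Nat.card H).factorization r :=
    (hr.out.pow_dvd_iff_le_factorization Nat.card_pos.ne').1 h1
  have h3 : K < Subgroup.zpowers c ⊔ K := by
    refine lt_of_le_of_ne le_sup_right ?_
    intro heq
    apply hcK
    rw [heq]
    exact Subgroup.mem_sup_left (Subgroup.mem_zpowers c)
  have h4 := Cfsg.Agent.Lib.Helper2.Frob.card_lt_of_lt h3
  calc Nat.card K < Nat.card (Subgroup.zpowers c ⊔ K : Subgroup G) := h4
    _ = r ^ j := hj
    _ ≤ r ^ (Nat.card H).factorization r := Nat.pow_le_pow_right hr.out.pos h2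

/-- F3 -/
theorem exists_rElt
    (h : ∀ x ∈ N, (Subgroup.centralizer ({x} : Set G)).index = 1 ∨
      (Subgroup.centralizer ({x} : Set G)).index = m)
    (r : ℕ) [hr : Fact r.Prime] (R : Sylow r G) (hR : ¬ (R : Subgroup G) ≤ Subgroup.center G)
    (hRN : (R : Subgroup G) ≤ N) {w : G} (hwN : w ∈ N) (hw : w ∉ Subgroup.center G) :
    ∃ c ∈ Cz(w), c ∉ Subgroup.center G ∧ ∃ k : ℕ, orderOf c = r ^ k := by
  by_contra hcon
  push Not at hcon
  obtain ⟨x₀, hx₀R, hx₀Z⟩ := SetLike.not_le_iff_exists.1 hR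
  have hx₀N := hRN hx₀R
  have hx₀r : ∃ k : ℕ, orderOf x₀ = r ^ k := PNil.pElem_of_mem_isPGroup _ R.isPGroup' x₀ hx₀R
  obtain ⟨P⟩ : Nonempty (Sylow r Cz(w)) := inferInstance
  set K : Subgroup G := (P : Subgroup Cz(w)).map (Subgroup.subtype _) with hKdef
  have hKp : IsPGroup r K := P.isPGroup'.map _
  have hKcard : Nat.card K = r ^ (Nat.card Cz(w)).factorization r := by
    rw [hKdef, Subgroup.card_map_of_injective (Subgroup.subtype_injective _),
      P.card_eq_multiplicity]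
  have hKZ : K ≤ Subgroup.center G := by
    rintro _ ⟨v, hv, rfl⟩
    by_contra hvZ
    obtain ⟨k, hk⟩ := PNil.pElem_of_mem_isPGroup _ hKp v.1 ⟨v, hv, rfl⟩
    exact hcon v.1 v.2 hvZ k hk
  have hlt := card_lt_of_rElt_not_mem r Cz(x₀) K hKp hKZ
    (hKZ.trans (Subgroup.center_le_centralizer _))
    (Small.mem_centralizer_singleton_iff.2 rfl) hx₀r (fun hmem => hx₀Z (hKZ hmem))
  rw [hKcard, card_eq h hwN hw hx₀N hx₀Z] at hlt
  exact lt_irrefl _ hlt

/-- F4 -/
theorem good_of_coprime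
    (h : ∀ x ∈ N, (Subgroup.centralizer ({x} : Set G)).index = 1 ∨
      (Subgroup.centralizer ({x} : Set G)).index = m)
    (r : ℕ) [hr : Fact r.Prime] (R : Sylow r G) (hR : ¬ (R : Subgroup G) ≤ Subgroup.center G)
    [N.Normal] (hRN : (R : Subgroup G) ≤ N) {w : G} (hwN : w ∈ N) (hw : w ∉ Subgroup.center G)
    (hwr : (orderOf w).Coprime r) : Good N w := by
  obtain ⟨c, hcC, hcZ, hcr⟩ := exists_rElt h r R hR hRN hwN hw
  have hcN := mem_of_rElt r R hRN hcr
  have hcw : Commute c w := (Small.mem_centralizer_singleton_iff.1 hcC).symm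
  have hg := good_of_commute h r hcN hcZ hcr hwN hw hwr hcw
  obtain ⟨k, hk⟩ := hcr
  exact hg.of_eq (centralizer_eq_of_coprime h hcN hcZ hwN hw hcw
    (by rw [hk]; exact Nat.Coprime.pow_left _ hwr.symm))

end Basic

section Counting

variable [Finite G]

theorem relIndex_dvd_index_of_normal_right (H K : Subgroup G) [K.Normal] :
    H.relIndex K ∣ H.index := by
  have h1 : Nat.card (H ⊔ K : Subgroup G) = K.relIndex (H ⊔ K) * Nat.card K :=
    Small.card_eq_relIndex_mul le_sup_right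
  rw [Subgroup.relIndex_sup_right] at h1
  have h2 : Nat.card H = K.relIndex H * Nat.card (K ⊓ H : Subgroup G) := by
    have := Small.card_eq_relIndex_mul (inf_le_right : K ⊓ H ≤ H)
    rwa [Subgroup.inf_relIndex_right] at this
  have h3 : Nat.card K = H.relIndex K * Nat.card (H ⊓ K : Subgroup G) := by
    have := Small.card_eq_relIndex_mul (inf_le_right : H ⊓ K ≤ K)
    rwa [Subgroup.inf_relIndex_right] at this
  have h4 : Nat.card (H ⊔ K : Subgroup G) ∣ Nat.card G := Subgroup.card_subgroup_dvd_card _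
  have h5 : Nat.card H * H.index = Nat.card G := H.card_mul_index
  have h6 : Nat.card (H ⊔ K : Subgroup G) = Nat.card H * H.relIndex K := by
    rw [h1]
    conv_lhs => rw [h3]
    conv_rhs => rw [h2]
    rw [inf_comm K H]; ring
  rw [h6, ← h5] at h4
  exact Nat.dvd_of_mul_dvd_mul_left Nat.card_pos h4

theorem pow_dvd_relIndex_sylow {p : ℕ} [hp : Fact p.Prime] (P : Sylow p G)
    (C : Subgroup G) (m : ℕ) (hm : Nat.card C * m = Nat.card G) :
    p ^ m.factorization p ∣ C.relIndex (P : Subgroup G) := by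
  have hmpos : 0 < m := by
    rcases Nat.eq_zero_or_pos m with h0 | h0
    · rw [h0, mul_zero] at hm; exact absurd hm.symm Nat.card_pos.ne'
    · exact h0
  have hCpos : 0 < Nat.card C := Nat.card_pos
  have h1 := Small.card_eq_relIndex_mul (inf_le_right : C ⊓ (P : Subgroup G) ≤ (P : Subgroup G))
  rw [Subgroup.inf_relIndex_right, P.card_eq_multiplicity, ← hm] at h1
  have hpg : IsPGroup p (C ⊓ (P : Subgroup G) : Subgroup G) := P.isPGroup'.to_le inf_le_right
  obtain ⟨j, hj⟩ := IsPGroup.iff_card.1 hpg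
  have hjm : p ^ j ∣ Nat.card C := by rw [← hj]; exact Subgroup.card_dvd_of_le inf_le_left
  have hjle : j ≤ (Nat.card C).factorization p :=
    (hp.out.pow_dvd_iff_le_factorization hCpos.ne').1 hjm
  rw [hj, Nat.factorization_mul hCpos.ne' hmpos.ne'] at h1
  simp only [Finsupp.coe_add, Pi.add_apply] at h1
  have h2 : p ^ ((Nat.card C).factorization p + m.factorization p) =
      p ^ ((Nat.card C).factorization p - j) * p ^ m.factorization p * p ^ j := by
    rw [← pow_add, ← pow_add]; congr 1; omega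
  rw [h2] at h1
  have h3 := Nat.eq_of_mul_eq_mul_right (pow_pos hp.out.pos j) h1
  rw [← h3]
  exact dvd_mul_left _ _

omit [Finite G] in
theorem conj_center {g v : G} (hmem : g * v * g⁻¹ ∈ Subgroup.center G) :
    v ∈ Subgroup.center G := by
  have := (inferInstance : (Subgroup.center G).Normal).conj_mem _ hmem g⁻¹
  have e : g⁻¹ * (g * v * g⁻¹) * g⁻¹⁻¹ = v := by group
  rwa [e] at this

/-- F5: a noncentral element of `S ∩ N` which is central in `S` modulo `Z(G)`. -/
theorem exists_second_center (s : ℕ) [hs : Fact s.Prime] (S : Subgroup G) (hS : IsPGroup s S)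
    (N : Subgroup G) [N.Normal] {y : G} (hyS : y ∈ S) (hyN : y ∈ N)
    (hyZ : y ∉ Subgroup.center G) :
    ∃ u ∈ S, u ∈ N ∧ u ∉ Subgroup.center G ∧
      ∀ g ∈ S, g * u * g⁻¹ * u⁻¹ ∈ Subgroup.center G := by
  classical
  have hSbp : IsPGroup s (S.map (QuotientGroup.mk' (Subgroup.center G))) := hS.map _
  have hXp : IsPGroup s ((N ⊓ S).map (QuotientGroup.mk' (Subgroup.center G))) :=
    (hS.to_le inf_le_right).map _
  have hY : ∀ g ∈ S.map (QuotientGroup.mk' (Subgroup.center G)),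
      ∀ w ∈ (((N ⊓ S).map (QuotientGroup.mk' (Subgroup.center G)) :
        Subgroup (G ⧸ Subgroup.center G)) : Set (G ⧸ Subgroup.center G)),
      g * w * g⁻¹ ∈ (((N ⊓ S).map (QuotientGroup.mk' (Subgroup.center G)) :
        Subgroup (G ⧸ Subgroup.center G)) : Set (G ⧸ Subgroup.center G)) := by
    rintro _ ⟨g, hg, rfl⟩ _ ⟨w, ⟨hwN, hwS⟩, rfl⟩
    refine ⟨g * w * g⁻¹,
      ⟨‹N.Normal›.conj_mem w hwN g, S.mul_mem (S.mul_mem hg hwS) (S.inv_mem hg)⟩, ?_⟩
    rw [map_mul, map_mul, map_inv]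
  let _ := ItoB.conjAction (S.map (QuotientGroup.mk' (Subgroup.center G))) _ hY
  have hmod := hSbp.card_modEq_card_fixedPoints
    (((N ⊓ S).map (QuotientGroup.mk' (Subgroup.center G)) :
        Subgroup (G ⧸ Subgroup.center G)) : Set (G ⧸ Subgroup.center G))
  obtain ⟨k, hk⟩ := IsPGroup.iff_card.1 hXp
  have hk1 : k ≠ 0 := by
    rintro rfl
    rw [pow_zero, Subgroup.card_eq_one] at hk
    have hmem : QuotientGroup.mk' (Subgroup.center G) y ∈
        (N ⊓ S).map (QuotientGroup.mk' (Subgroup.center G)) := ⟨y, ⟨hyN, hyS⟩, rfl⟩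
    rw [hk, Subgroup.mem_bot] at hmem
    exact hyZ ((QuotientGroup.eq_one_iff y).1 hmem)
  have hfix1 : (⟨1, Subgroup.one_mem _⟩ :
      (((N ⊓ S).map (QuotientGroup.mk' (Subgroup.center G)) :
        Subgroup (G ⧸ Subgroup.center G)) : Set (G ⧸ Subgroup.center G))) ∈
      MulAction.fixedPoints (S.map (QuotientGroup.mk' (Subgroup.center G)))
        (((N ⊓ S).map (QuotientGroup.mk' (Subgroup.center G)) :
        Subgroup (G ⧸ Subgroup.center G)) : Set (G ⧸ Subgroup.center G)) := by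
    intro g
    apply Subtype.ext
    change g.1 * 1 * g.1⁻¹ = 1
    group
  have hex : ∃ f ∈ MulAction.fixedPoints (S.map (QuotientGroup.mk' (Subgroup.center G)))
        (((N ⊓ S).map (QuotientGroup.mk' (Subgroup.center G)) :
        Subgroup (G ⧸ Subgroup.center G)) : Set (G ⧸ Subgroup.center G)),
      f ≠ ⟨1, Subgroup.one_mem _⟩ := by
    by_contra hcon
    push Not at hcon
    have hone : Nat.card (MulAction.fixedPoints (S.map (QuotientGroup.mk' (Subgroup.center G)))
        (((N ⊓ S).map (QuotientGroup.mk' (Subgroup.center G)) :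
        Subgroup (G ⧸ Subgroup.center G)) : Set (G ⧸ Subgroup.center G))) = 1 := by
      rw [Nat.card_eq_one_iff_unique]
      exact ⟨⟨fun a b => Subtype.ext ((hcon a.1 a.2).trans (hcon b.1 b.2).symm)⟩,
        ⟨⟨_, hfix1⟩⟩⟩
    rw [hone] at hmod
    have hcX : Nat.card ((((N ⊓ S).map (QuotientGroup.mk' (Subgroup.center G)) :
        Subgroup (G ⧸ Subgroup.center G)) : Set (G ⧸ Subgroup.center G))) = s ^ k := hk
    rw [hcX] at hmod
    have h0 : s ^ k ≡ 0 [MOD s] := (Nat.modEq_zero_iff_dvd).2 (dvd_pow_self s hk1)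
    have h1 : s ∣ 1 := (Nat.modEq_zero_iff_dvd).1 (hmod.symm.trans h0)
    exact hs.out.one_lt.ne' (Nat.dvd_one.1 h1)
  obtain ⟨⟨xb, hxb⟩, hf, hne⟩ := hex
  have hxb' : xb ∈ (N ⊓ S).map (QuotientGroup.mk' (Subgroup.center G)) := hxb
  obtain ⟨u, ⟨huN, huS⟩, hu⟩ := Subgroup.mem_map.1 hxb'
  refine ⟨u, huS, huN, ?_, ?_⟩
  · intro huZ
    apply hne
    apply Subtype.ext
    change xb = 1
    rw [← hu]
    exact (QuotientGroup.eq_one_iff u).2 huZ
  · intro g hg
    have h1 := hf ⟨QuotientGroup.mk' (Subgroup.center G) g, ⟨g, hg, rfl⟩⟩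
    have h2 : QuotientGroup.mk' (Subgroup.center G) g * xb *
        (QuotientGroup.mk' (Subgroup.center G) g)⁻¹ = xb := congrArg Subtype.val h1
    rw [← QuotientGroup.eq_one_iff]
    change QuotientGroup.mk' (Subgroup.center G) (g * u * g⁻¹ * u⁻¹) = 1
    rw [map_mul, map_mul, map_mul, map_inv, map_inv, hu, h2]
    group

/-- orbit counting for a conjugation action with constant stabilizer -/
theorem relIndex_dvd_card_sub (A B C Q : Subgroup G) (hBA : B ≤ A)
    (hinv : ∀ g ∈ Q, ∀ v ∈ A, v ∉ B → g * v * g⁻¹ ∈ A ∧ g * v * g⁻¹ ∉ B)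
    (hstab : ∀ g ∈ Q, ∀ v ∈ A, v ∉ B → (g * v * g⁻¹ = v ↔ g ∈ C)) :
    C.relIndex Q ∣ Nat.card A - Nat.card B := by
  classical
  have hY : ∀ g ∈ Q, ∀ v ∈ {v : G | v ∈ A ∧ v ∉ B}, g * v * g⁻¹ ∈ {v : G | v ∈ A ∧ v ∉ B} :=
    fun g hg v hv => hinv g hg v hv.1 hv.2
  let _ := ItoB.conjAction Q _ hY
  have hst : ∀ y : {v : G | v ∈ A ∧ v ∉ B}, (MulAction.stabilizer Q y).index = C.relIndex Q := by
    rintro ⟨v, hvA, hvB⟩
    have hst' : MulAction.stabilizer Q (⟨v, hvA, hvB⟩ : {v : G | v ∈ A ∧ v ∉ B}) =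
        C.subgroupOf Q := by
      ext g
      rw [MulAction.mem_stabilizer_iff, Subgroup.mem_subgroupOf, ← hstab g.1 g.2 v hvA hvB]
      constructor
      · intro hg'; exact congrArg Subtype.val hg'
      · intro hg'; exact Subtype.ext hg'
    rw [hst']; rfl
  have hd := ItoA.dvd_card_of_index_stabilizer (R := Q) _ hst
  have hcard : Nat.card A = Nat.card B + Nat.card {v : G | v ∈ A ∧ v ∉ B} := by
    rw [Nat.card_congr (Equiv.sumCompl (fun v : A => (v : G) ∈ B)).symm, Nat.card_sum]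
    congr 1
    · exact Nat.card_congr
        { toFun := fun v => ⟨v.1.1, v.2⟩
          invFun := fun u => ⟨⟨u.1, hBA u.2⟩, u.2⟩
          left_inv := fun v => rfl
          right_inv := fun u => rfl }
    · exact Nat.card_congr
        { toFun := fun v => ⟨v.1.1, ⟨v.1.2, v.2⟩⟩
          invFun := fun y => ⟨⟨y.1, y.2.1⟩, y.2.2⟩
          left_inv := fun v => rfl
          right_inv := fun u => rfl }
  have hc2 : Nat.card {v : G | v ∈ A ∧ v ∉ B} = Nat.card A - Nat.card B := by omega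
  rw [← hc2]; exact hd

/-- F6 -/
theorem relIndex_dvd_sub_one {N : Subgroup G} [N.Normal] {w : G} (hg : Good N w)
    (s q : ℕ) [hs : Fact s.Prime] [hq : Fact q.Prime] (hsq : s ≠ q) (Q : Subgroup G)
    (hQs : IsPGroup s Q) (hQ : ∀ g ∈ Q, ∀ v ∈ Cz(w), g * v * g⁻¹ ∈ Cz(w)) :
    Cz(w).relIndex Q ∣ q ^ ((Nat.card (Cz(w) ⊓ N : Subgroup G)).factorization q -
      (Nat.card (N ⊓ Subgroup.center G : Subgroup G)).factorization q) - 1 := by
  have hBA : ItoA.sPart q (N ⊓ Subgroup.center G) (inf_center_comm N) ≤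
      ItoA.sPart q (Cz(w) ⊓ N) hg.comm := by
    rintro v ⟨⟨hvN, hvZ⟩, hk⟩
    exact ⟨⟨Subgroup.center_le_centralizer _ hvZ, hvN⟩, hk⟩
  have hd := relIndex_dvd_card_sub (ItoA.sPart q (Cz(w) ⊓ N) hg.comm)
    (ItoA.sPart q (N ⊓ Subgroup.center G) (inf_center_comm N)) Cz(w) Q hBA
    (by
      rintro g hgQ v ⟨⟨hvC, hvN⟩, k, hk⟩ hvB
      have hvZ : v ∉ Subgroup.center G := fun hz => hvB ⟨⟨hvN, hz⟩, k, hk⟩
      refine ⟨⟨⟨hQ g hgQ v hvC, ‹N.Normal›.conj_mem v hvN g⟩, k, ?_⟩, ?_⟩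
      · rw [conj_pow, hk]; group
      · rintro ⟨⟨_, hz⟩, _⟩
        exact hvZ (conj_center hz))
    (by
      rintro g hgQ v ⟨⟨hvC, hvN⟩, k, hk⟩ hvB
      have hvZ : v ∉ Subgroup.center G := fun hz => hvB ⟨⟨hvN, hz⟩, k, hk⟩
      have hCv : Cz(v) = Cz(w) := hg v hvN hvC hvZ
      rw [← hCv, Small.mem_centralizer_singleton_iff]
      constructor
      · intro h1
        calc v * g = (g * v * g⁻¹) * g := by rw [h1]
          _ = g * v := by group
      · intro h1
        rw [← h1]; group)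
  rw [ItoA.card_sPart, ItoA.card_sPart] at hd
  have hzd : Nat.card (N ⊓ Subgroup.center G : Subgroup G) ∣
      Nat.card (Cz(w) ⊓ N : Subgroup G) :=
    Subgroup.card_dvd_of_le
      (le_inf (inf_le_right.trans (Subgroup.center_le_centralizer _)) inf_le_left)
  have hle : (Nat.card (N ⊓ Subgroup.center G : Subgroup G)).factorization q ≤
      (Nat.card (Cz(w) ⊓ N : Subgroup G)).factorization q :=
    (hq.out.pow_dvd_iff_le_factorization Nat.card_pos.ne').1 ((Nat.ordProj_dvd _ q).trans hzd)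
  have hsplit : q ^ (Nat.card (Cz(w) ⊓ N : Subgroup G)).factorization q =
      q ^ (Nat.card (N ⊓ Subgroup.center G : Subgroup G)).factorization q *
        q ^ ((Nat.card (Cz(w) ⊓ N : Subgroup G)).factorization q -
          (Nat.card (N ⊓ Subgroup.center G : Subgroup G)).factorization q) := by
    rw [← pow_add]; congr 1; omega
  have hcY : q ^ (Nat.card (Cz(w) ⊓ N : Subgroup G)).factorization q -
      q ^ (Nat.card (N ⊓ Subgroup.center G : Subgroup G)).factorization q =
      q ^ (Nat.card (N ⊓ Subgroup.center G : Subgroup G)).factorization q *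
        (q ^ ((Nat.card (Cz(w) ⊓ N : Subgroup G)).factorization q -
          (Nat.card (N ⊓ Subgroup.center G : Subgroup G)).factorization q) - 1) := by
    rw [Nat.mul_sub_one, ← hsplit]
  rw [hcY] at hd
  obtain ⟨j, hj⟩ : ∃ j, Cz(w).relIndex Q = s ^ j := by
    obtain ⟨i, hi⟩ := IsPGroup.iff_card.1 hQs
    have hdv := Subgroup.relIndex_dvd_card Cz(w) Q
    rw [hi] at hdv
    obtain ⟨j, -, hj⟩ := (Nat.dvd_prime_pow hs.out).1 hdv
    exact ⟨j, hj⟩
  have hcop : Nat.Coprime (Cz(w).relIndex Q)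
      (q ^ (Nat.card (N ⊓ Subgroup.center G : Subgroup G)).factorization q) := by
    rw [hj]; exact Nat.Coprime.pow _ _ ((Nat.coprime_primes hs.out hq.out).2 hsq)
  exact hcop.dvd_of_dvd_mul_left hd

end Counting

section Main

variable [Finite G] {N : Subgroup G} {m : ℕ}

/-- the `r`-part of `C ∩ N` is the `r`-part of `C` -/
theorem factorization_inf_eq [N.Normal] (r : ℕ) [hr : Fact r.Prime] (R : Sylow r G)
    (hRN : (R : Subgroup G) ≤ N) (C : Subgroup G) :
    (Nat.card (C ⊓ N : Subgroup G)).factorization r = (Nat.card C).factorization r := by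
  apply le_antisymm
  · exact (hr.out.pow_dvd_iff_le_factorization Nat.card_pos.ne').1
      ((Nat.ordProj_dvd _ r).trans (Subgroup.card_dvd_of_le inf_le_left))
  · obtain ⟨P⟩ : Nonempty (Sylow r C) := inferInstance
    have hP : (P : Subgroup C).map C.subtype ≤ C ⊓ N := by
      rintro _ ⟨v, hv, rfl⟩
      refine ⟨v.2, ?_⟩
      exact mem_of_rElt r R hRN
        (PNil.pElem_of_mem_isPGroup _ (P.isPGroup'.map C.subtype) v.1 ⟨v, hv, rfl⟩)
    have h1 := Subgroup.card_dvd_of_le hP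
    rw [Subgroup.card_map_of_injective C.subtype_injective, P.card_eq_multiplicity] at h1
    exact (hr.out.pow_dvd_iff_le_factorization Nat.card_pos.ne').1 h1

/-- a noncentral `t`-element of `H ⊇ N ∩ Z(G)` makes the `t`-part of `H` bigger than that of
`N ∩ Z(G)` -/
theorem factorization_lt_of_elt (N : Subgroup G) (t : ℕ) [ht : Fact t.Prime] (H : Subgroup G)
    (hZH : N ⊓ Subgroup.center G ≤ H) {c : G} (hcH : c ∈ H) (hcZ : c ∉ Subgroup.center G)
    (hct : ∃ k : ℕ, orderOf c = t ^ k) :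
    (Nat.card (N ⊓ Subgroup.center G : Subgroup G)).factorization t <
      (Nat.card H).factorization t := by
  obtain ⟨P⟩ : Nonempty (Sylow t (N ⊓ Subgroup.center G : Subgroup G)) := inferInstance
  have hKp : IsPGroup t ((P : Subgroup (N ⊓ Subgroup.center G : Subgroup G)).map
      (Subgroup.subtype (N ⊓ Subgroup.center G))) := P.isPGroup'.map _
  have hKZ' : (P : Subgroup (N ⊓ Subgroup.center G : Subgroup G)).map
      (Subgroup.subtype (N ⊓ Subgroup.center G)) ≤ N ⊓ Subgroup.center G := by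
    rintro _ ⟨v, hv, rfl⟩; exact v.2
  have hKZ : (P : Subgroup (N ⊓ Subgroup.center G : Subgroup G)).map
      (Subgroup.subtype (N ⊓ Subgroup.center G)) ≤ Subgroup.center G := hKZ'.trans inf_le_right
  have hlt := card_lt_of_rElt_not_mem t H _ hKp hKZ (hKZ'.trans hZH) hcH hct
    (fun hmem => hcZ (hKZ hmem))
  rw [Subgroup.card_map_of_injective (Subgroup.subtype_injective _), P.card_eq_multiplicity]
    at hlt
  exact (Nat.pow_lt_pow_iff_right ht.out.one_lt).1 hlt

/-- F7 -/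
theorem pow_dvd_of_tElt
    (h : ∀ x ∈ N, (Subgroup.centralizer ({x} : Set G)).index = 1 ∨
      (Subgroup.centralizer ({x} : Set G)).index = m)
    (r : ℕ) [hr : Fact r.Prime] (R : Sylow r G) (hR : ¬ (R : Subgroup G) ≤ Subgroup.center G)
    [N.Normal] (hRN : (R : Subgroup G) ≤ N) (t : ℕ) [ht : Fact t.Prime] (htr : t ≠ r)
    {y : G} (hyN : y ∈ N) (hyZ : y ∉ Subgroup.center G) (hyt : ∃ k : ℕ, orderOf y = t ^ k)
    {w : G} (hwN : w ∈ N) (hw : w ∉ Subgroup.center G) :
    t ^ m.factorization t ∣ r ^ ((Nat.card Cz(w)).factorization r -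
      (Nat.card (N ⊓ Subgroup.center G : Subgroup G)).factorization r) - 1 := by
  obtain ⟨T, hT⟩ := (PNil.isPGroup_zpowers y hyt).exists_le_sylow
  have hyT : y ∈ (T : Subgroup G) := hT (Subgroup.mem_zpowers y)
  obtain ⟨u, huT, huN, huZ, hu2⟩ :=
    exists_second_center t (T : Subgroup G) T.isPGroup' N hyT hyN hyZ
  obtain ⟨k, hk⟩ := PNil.pElem_of_mem_isPGroup _ T.isPGroup' u huT
  have hur : (orderOf u).Coprime r := by
    rw [hk]; exact Nat.Coprime.pow_left _ ((Nat.coprime_primes ht.out hr.out).2 htr)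
  have hg : Good N u := good_of_coprime h r R hR hRN huN huZ hur
  have h1 := relIndex_dvd_sub_one hg t r htr (T : Subgroup G) T.isPGroup'
    (fun g hgT v hv => ItoB.conj_mem_centralizer (hu2 g hgT) hv)
  rw [factorization_inf_eq r R hRN, card_eq h huN huZ hwN hw] at h1
  exact (pow_dvd_relIndex_sylow T Cz(u) m (card_mul h huN huZ)).trans h1

/-- F9 -/
theorem card_le_of_not_mem {w : G} (hg : Good N w) {g : G} (hgC : g ∉ Cz(w)) :
    Nat.card (Cz(w) ⊓ N : Subgroup G) ≤
      Cz(g).relIndex N * Nat.card (N ⊓ Subgroup.center G : Subgroup G) := by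
  have h1 := Small.card_eq_relIndex_mul (inf_le_right : Cz(g) ⊓ (Cz(w) ⊓ N) ≤ Cz(w) ⊓ N)
  rw [Subgroup.inf_relIndex_right] at h1
  have h2 : Cz(g).relIndex (Cz(w) ⊓ N) ≤ Cz(g).relIndex N :=
    Subgroup.relIndex_le_of_le_right inf_le_right
      (Subgroup.index_ne_zero_of_finite (H := Cz(g).subgroupOf N))
  have h3 : Cz(g) ⊓ (Cz(w) ⊓ N) ≤ N ⊓ Subgroup.center G := by
    rintro x ⟨hxg, hxC, hxN⟩
    refine ⟨hxN, ?_⟩
    by_contra hxZ
    have hCx := hg x hxN hxC hxZ
    apply hgC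
    rw [← hCx, Small.mem_centralizer_singleton_iff]
    exact (Small.mem_centralizer_singleton_iff.1 hxg).symm
  rw [h1]
  exact Nat.mul_le_mul h2 (Subgroup.card_le_of_le h3)

theorem not_dvd_relIndex (t : ℕ) [ht : Fact t.Prime]
    (hcen : ∀ v ∈ N, (∃ k : ℕ, orderOf v = t ^ k) → v ∈ Subgroup.center G) (g : G) :
    ¬ t ∣ Cz(g).relIndex N := by
  obtain ⟨P⟩ : Nonempty (Sylow t N) := inferInstance
  have hP : (P : Subgroup N) ≤ Cz(g).subgroupOf N := by
    intro v hv
    rw [Subgroup.mem_subgroupOf]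
    apply Subgroup.center_le_centralizer
    apply hcen v.1 v.2
    obtain ⟨k, hk⟩ := PNil.pElem_of_mem_isPGroup _ P.isPGroup' v hv
    exact ⟨k, by rw [← hk, Subgroup.orderOf_coe]⟩
  intro hd
  exact P.not_dvd_index (hd.trans (Subgroup.index_dvd_of_le hP))

/-- Lemma N: if a Sylow `r`-subgroup normalizes a good centralizer containing a noncentral
`t`-element of `N`, then `N` lies in that centralizer. -/
theorem le_centralizer_of_normalizing
    (h : ∀ x ∈ N, (Subgroup.centralizer ({x} : Set G)).index = 1 ∨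
      (Subgroup.centralizer ({x} : Set G)).index = m)
    (r : ℕ) [hr : Fact r.Prime] (R : Sylow r G) (hR : ¬ (R : Subgroup G) ≤ Subgroup.center G)
    [N.Normal] (hRN : (R : Subgroup G) ≤ N)
    {w : G} (hwN : w ∈ N) (hw : w ∉ Subgroup.center G) (hg : Good N w)
    (R' : Sylow r G) (hR' : ∀ g ∈ (R' : Subgroup G), ∀ v ∈ Cz(w), g * v * g⁻¹ ∈ Cz(w))
    (t : ℕ) [ht : Fact t.Prime] (htr : t ≠ r) {y : G} (hyC : y ∈ Cz(w)) (hyN : y ∈ N)
    (hyZ : y ∉ Subgroup.center G) (hyt : ∃ k : ℕ, orderOf y = t ^ k) :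
    N ≤ Cz(w) := by
  by_contra hnot
  obtain ⟨g, hgN, hgC⟩ := SetLike.not_le_iff_exists.1 hnot
  have hZD : N ⊓ Subgroup.center G ≤ Cz(w) ⊓ N :=
    le_inf (inf_le_right.trans (Subgroup.center_le_centralizer _)) inf_le_left
  have hZC : N ⊓ Subgroup.center G ≤ Cz(w) :=
    inf_le_right.trans (Subgroup.center_le_centralizer _)
  have hα := card_le_of_not_mem hg hgC
  have hgZ : g ∉ Subgroup.center G := fun hz => hgC (Subgroup.center_le_centralizer _ hz)
  have hν : Cz(g).relIndex N ∣ m := by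
    rw [← index_eq h hgN hgZ]; exact relIndex_dvd_index_of_normal_right _ _
  have hνpos : 0 < Cz(g).relIndex N :=
    Nat.pos_of_ne_zero (Subgroup.index_ne_zero_of_finite (H := Cz(g).subgroupOf N))
  have hmpos : 0 < m := m_pos h hwN hw
  have hfle : ∀ p : ℕ, p.Prime → p ^ (Cz(g).relIndex N).factorization p ∣
      p ^ m.factorization p := by
    intro p hp
    exact pow_dvd_pow p ((hp.pow_dvd_iff_le_factorization hmpos.ne').1
      ((Nat.ordProj_dvd _ p).trans hν))
  have hr_eq : (Nat.card (Cz(w) ⊓ N : Subgroup G)).factorization r =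
      (Nat.card Cz(w)).factorization r := factorization_inf_eq r R hRN _
  obtain ⟨c, hcC, hcZ, hcr⟩ := exists_rElt h r R hR hRN hwN hw
  have h2' : (Nat.card (N ⊓ Subgroup.center G : Subgroup G)).factorization r <
      (Nat.card (Cz(w) ⊓ N : Subgroup G)).factorization r := by
    rw [hr_eq]; exact factorization_lt_of_elt N r Cz(w) hZC hcC hcZ hcr
  have h1' : (Nat.card (N ⊓ Subgroup.center G : Subgroup G)).factorization t <
      (Nat.card (Cz(w) ⊓ N : Subgroup G)).factorization t :=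
    factorization_lt_of_elt N t (Cz(w) ⊓ N) hZD ⟨hyC, hyN⟩ hyZ hyt
  have h1 : r ^ (Cz(g).relIndex N).factorization r ∣
      t ^ ((Nat.card (Cz(w) ⊓ N : Subgroup G)).factorization t -
        (Nat.card (N ⊓ Subgroup.center G : Subgroup G)).factorization t) - 1 := by
    have e1 := relIndex_dvd_sub_one hg r t htr.symm (R' : Subgroup G) R'.isPGroup' hR'
    have e2 := pow_dvd_relIndex_sylow R' Cz(w) m (card_mul h hwN hw)
    exact (hfle r hr.out).trans (e2.trans e1)
  have h2 : ∀ t' : ℕ, t'.Prime → t' ≠ r → t' ^ (Cz(g).relIndex N).factorization t' ∣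
      r ^ ((Nat.card (Cz(w) ⊓ N : Subgroup G)).factorization r -
        (Nat.card (N ⊓ Subgroup.center G : Subgroup G)).factorization r) - 1 := by
    intro t' ht' ht'r
    haveI : Fact t'.Prime := ⟨ht'⟩
    by_cases hd : t' ∣ Cz(g).relIndex N
    · have hex : ∃ v ∈ N, (∃ k : ℕ, orderOf v = t' ^ k) ∧ v ∉ Subgroup.center G := by
        by_contra hcon
        push Not at hcon
        exact not_dvd_relIndex t' (fun v hvN hvt => hcon v hvN hvt) g hd
      obtain ⟨v, hvN, hvt, hvZ⟩ := hex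
      have e1 := pow_dvd_of_tElt h r R hR hRN t' ht'r hvN hvZ hvt hwN hw
      rw [hr_eq]
      exact (hfle t' ht').trans e1
    · rw [Nat.factorization_eq_zero_of_not_dvd hd, pow_zero]; exact one_dvd _
  exact ItoA.numeric_contra (Cz(g).relIndex N) (Nat.card (Cz(w) ⊓ N : Subgroup G))
    (Nat.card (N ⊓ Subgroup.center G : Subgroup G)) r t hr.out ht.out htr.symm hνpos
    Nat.card_pos (Subgroup.card_dvd_of_le hZD) Nat.card_pos hα h1 h1' h2 h2'

end Main

end Cfsg.Agent.Lib.Helper55.RelIto
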