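import Mathlib
import Cfsg.Agent.Lib.Helper55.RelIto

set_option autoImplicit false

namespace Cfsg.Agent.Lib.Helper55.RelIto

open Cfsg.Agent.Lib.Helper69

variable {G : Type*} [Group G]

local notation "Cz(" x ")" => Subgroup.centralizer ({x} : Set _)

theorem nilpotent_of_comm (N : Subgroup G) (hc : ∀ a ∈ N, ∀ b ∈ N, a * b = b * a) :
    Group.IsNilpotent N :=
  Subgroup.isNilpotent_of_ker_le_center (1 : N →* Unit)
    (fun a _ => Subgroup.mem_center_iff.2 (fun b => Subtype.ext (hc b b.2 a a.2)))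

theorem comm_of_le_good {N : Subgroup G} {w : G} (hg : Good N w) (hle : N ≤ Cz(w)) :
    ∀ a ∈ N, ∀ b ∈ N, a * b = b * a :=
  fun a ha b hb => hg.comm a ⟨hle ha, ha⟩ b ⟨hle hb, hb⟩

theorem ne_of_coprime_pow {v : G} {r t j : ℕ} (ht : t.Prime) (hvr : (orderOf v).Coprime r)
    (hjt : ∃ k : ℕ, orderOf (v ^ j) = t ^ k) (hne : v ^ j ≠ 1) : t ≠ r := by
  rintro rfl
  obtain ⟨k, hk⟩ := hjt
  have hk0 : k ≠ 0 := by
    rintro rfl
    rw [pow_zero, orderOf_eq_one_iff] at hk
    exact hne hk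
  have hdvd : t ∣ orderOf v := by
    have h1 : orderOf (v ^ j) ∣ orderOf v := orderOf_pow_dvd j
    rw [hk] at h1
    exact (dvd_pow_self t hk0).trans h1
  have h2 : t ∣ Nat.gcd (orderOf v) t := Nat.dvd_gcd hdvd dvd_rfl
  rw [hvr] at h2
  exact ht.one_lt.ne' (Nat.dvd_one.1 h2)

/-- (i): if all `r'`-elements of `N` are central then `N` is nilpotent. -/
theorem nilpotent_of_coprime_central [Finite G] (N : Subgroup G) (r : ℕ) [hr : Fact r.Prime]
    (hc : ∀ v ∈ N, (orderOf v).Coprime r → v ∈ Subgroup.center G) : Group.IsNilpotent N := by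
  have hker : (((QuotientGroup.mk' (Subgroup.center G)).comp N.subtype).rangeRestrict).ker ≤
      Subgroup.center N := by
    intro a ha
    rw [MonoidHom.ker_rangeRestrict, MonoidHom.mem_ker] at ha
    have ha' : (a : G) ∈ Subgroup.center G := (QuotientGroup.eq_one_iff (a : G)).1 ha
    rw [Subgroup.mem_center_iff]
    intro b
    exact Subtype.ext (Subgroup.mem_center_iff.1 ha' b.1)
  have hp : IsPGroup r ((QuotientGroup.mk' (Subgroup.center G)).comp N.subtype).range := by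
    rintro ⟨_, ⟨a, rfl⟩⟩
    obtain ⟨i, j, ⟨k, hk⟩, hcop, hij⟩ := PNil.exists_pow_decomp r (a : G)
    refine ⟨k, ?_⟩
    apply Subtype.ext
    have hj : (a : G) ^ j ∈ Subgroup.center G := hc _ (N.pow_mem a.2 j) hcop
    have e1 : ((QuotientGroup.mk' (Subgroup.center G)).comp N.subtype) a =
        QuotientGroup.mk' (Subgroup.center G) ((a : G) ^ i) := by
      have e0 : ((QuotientGroup.mk' (Subgroup.center G)).comp N.subtype) a =
          QuotientGroup.mk' (Subgroup.center G) ((a : G) ^ i * (a : G) ^ j) := by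
        rw [hij]; rfl
      have e2 : QuotientGroup.mk' (Subgroup.center G) ((a : G) ^ j) = 1 :=
        (QuotientGroup.eq_one_iff _).2 hj
      rw [e0, map_mul, e2, mul_one]
    change (((QuotientGroup.mk' (Subgroup.center G)).comp N.subtype) a) ^ (r ^ k) = 1
    rw [e1, ← map_pow, ← hk, pow_orderOf_eq_one, map_one]
  have hnil := hp.isNilpotent
  exact Subgroup.isNilpotent_of_ker_le_center _ hker

theorem numeric_beta2 (r t a b c e ρ mt : ℕ) (hr : 2 ≤ r) (ht : 2 ≤ t)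
    (hab : b < a) (hce : e < c) (h4 : r ^ a ≤ ρ * r ^ b)
    (h5 : ρ ∣ t ^ (c - e) - 1) (h6 : t ^ mt ∣ r ^ (a - b) - 1) (h7 : c ≤ e + mt) : False := by
  have hX2 : 2 ≤ r ^ (a - b) := le_trans hr (Nat.le_self_pow (by omega) r)
  have hY2 : 2 ≤ t ^ (c - e) := le_trans ht (Nat.le_self_pow (by omega) t)
  have hsplit : r ^ a = r ^ (a - b) * r ^ b := by
    rw [← pow_add]; congr 1; omega
  rw [hsplit] at h4
  have h4' : r ^ (a - b) ≤ ρ := Nat.le_of_mul_le_mul_right h4 (pow_pos (by omega) b)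
  have h5' : ρ ≤ t ^ (c - e) - 1 := Nat.le_of_dvd (by omega) h5
  have h6' : t ^ mt ≤ r ^ (a - b) - 1 := Nat.le_of_dvd (by omega) h6
  have h7' : t ^ (c - e) ≤ t ^ mt := Nat.pow_le_pow_right (by omega) (by omega)
  omega

section Main

variable [Finite G] {N : Subgroup G} {m : ℕ}

/-- (β'): the bound on the `t`-part of `|N|` when all `t`-elements of `C_N(u)` are central. -/
theorem factorization_le_of_typeI
    (h : ∀ x ∈ N, (Subgroup.centralizer ({x} : Set G)).index = 1 ∨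
      (Subgroup.centralizer ({x} : Set G)).index = m)
    [N.Normal] {u : G} (huN : u ∈ N) (huZ : u ∉ Subgroup.center G) (t : ℕ) [ht : Fact t.Prime]
    (hI : ∀ y ∈ N, (∃ k : ℕ, orderOf y = t ^ k) → Commute u y → y ∈ Subgroup.center G) :
    (Nat.card N).factorization t ≤
      (Nat.card (N ⊓ Subgroup.center G : Subgroup G)).factorization t + m.factorization t := by
  have h1 := Small.card_eq_relIndex_mul (inf_le_right : Cz(u) ⊓ N ≤ N)
  rw [Subgroup.inf_relIndex_right] at h1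
  have hν : Cz(u).relIndex N ∣ m := by
    rw [← index_eq h huN huZ]; exact relIndex_dvd_index_of_normal_right _ _
  have hνpos : 0 < Cz(u).relIndex N :=
    Nat.pos_of_ne_zero (Subgroup.index_ne_zero_of_finite (H := Cz(u).subgroupOf N))
  have hmpos : 0 < m := m_pos h huN huZ
  have e1 : (Cz(u).relIndex N).factorization t ≤ m.factorization t :=
    (ht.out.pow_dvd_iff_le_factorization hmpos.ne').1 ((Nat.ordProj_dvd _ t).trans hν)
  obtain ⟨P⟩ : Nonempty (Sylow t (Cz(u) ⊓ N : Subgroup G)) := inferInstance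
  have hP : (P : Subgroup (Cz(u) ⊓ N : Subgroup G)).map (Subgroup.subtype (Cz(u) ⊓ N)) ≤
      N ⊓ Subgroup.center G := by
    rintro _ ⟨v, hv, rfl⟩
    refine ⟨v.2.2, ?_⟩
    apply hI v.1 v.2.2
    · exact PNil.pElem_of_mem_isPGroup _ (P.isPGroup'.map (Subgroup.subtype (Cz(u) ⊓ N))) v.1
        ⟨v, hv, rfl⟩
    · exact Small.mem_centralizer_singleton_iff.1 v.2.1
  have h2 := Subgroup.card_dvd_of_le hP
  rw [Subgroup.card_map_of_injective (Subgroup.subtype_injective _), P.card_eq_multiplicity] at h2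
  have e2 : (Nat.card (Cz(u) ⊓ N : Subgroup G)).factorization t ≤
      (Nat.card (N ⊓ Subgroup.center G : Subgroup G)).factorization t :=
    (ht.out.pow_dvd_iff_le_factorization Nat.card_pos.ne').1 h2
  rw [h1, Nat.factorization_mul hνpos.ne' Nat.card_pos.ne']
  simp only [Finsupp.coe_add, Pi.add_apply]
  omega

/-- (β2): the contradiction when the Sylow `r`-subgroup `R'` containing the `r`-part of
`C(w) ∩ N` does not normalize `C(w)`. -/
theorem beta2
    (h : ∀ x ∈ N, (Subgroup.centralizer ({x} : Set G)).index = 1 ∨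
      (Subgroup.centralizer ({x} : Set G)).index = m)
    (r : ℕ) [hr : Fact r.Prime] (R : Sylow r G) (hR : ¬ (R : Subgroup G) ≤ Subgroup.center G)
    [N.Normal] (hRN : (R : Subgroup G) ≤ N) (t : ℕ) [ht : Fact t.Prime] (htr : t ≠ r)
    {w : G} (hwN : w ∈ N) (hwZ : w ∉ Subgroup.center G) (hwt : ∃ k : ℕ, orderOf w = t ^ k)
    (hg : Good N w) (R' : Sylow r G)
    (hR' : ItoA.sPart r (Cz(w) ⊓ N) hg.comm ≤ (R' : Subgroup G))
    (hβ : ¬ ∀ g ∈ (R' : Subgroup G), ∀ v ∈ Cz(w), g * v * g⁻¹ ∈ Cz(w))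
    (hbound : (Nat.card N).factorization t ≤
      (Nat.card (N ⊓ Subgroup.center G : Subgroup G)).factorization t + m.factorization t) :
    False := by
  classical
  obtain ⟨c₀, hc₀C, hc₀Z, hc₀r⟩ := exists_rElt h r R hR hRN hwN hwZ
  have hc₀N := mem_of_rElt r R hRN hc₀r
  have hc₀D : c₀ ∈ ItoA.sPart r (Cz(w) ⊓ N) hg.comm := by
    obtain ⟨k, hk⟩ := hc₀r
    exact ⟨⟨hc₀C, hc₀N⟩, k, by rw [← hk]; exact pow_orderOf_eq_one c₀⟩
  have hR₂norm : ∀ g ∈ ((R' : Subgroup G) ⊓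
      Subgroup.normalizer ((ItoA.sPart r (Cz(w) ⊓ N) hg.comm : Subgroup G) : Set G) :
        Subgroup G), ∀ v ∈ Cz(w), g * v * g⁻¹ ∈ Cz(w) := by
    rintro g ⟨hgR', hgn⟩ v hv
    have h1 : g * c₀ * g⁻¹ ∈ ItoA.sPart r (Cz(w) ⊓ N) hg.comm :=
      (Subgroup.mem_normalizer_iff.1 hgn c₀).1 hc₀D
    have h1Z : g * c₀ * g⁻¹ ∉ Subgroup.center G := fun hz => hc₀Z (conj_center hz)
    have e1 : Cz(g * c₀ * g⁻¹) = Cz(w) := hg _ h1.1.2 h1.1.1 h1Z
    have e2 : Cz(c₀) = Cz(w) := hg _ hc₀N hc₀C hc₀Z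
    rw [← e1]
    exact conj_mem_centralizer_conj g (by rw [e2]; exact hv)
  have hne : ((R' : Subgroup G) ⊓
      Subgroup.normalizer ((ItoA.sPart r (Cz(w) ⊓ N) hg.comm : Subgroup G) : Set G) :
        Subgroup G) ≠ (R' : Subgroup G) := by
    intro heq
    apply hβ
    intro g hgR'
    exact hR₂norm g (by rw [heq]; exact hgR')
  have hlt := Cfsg.Agent.Lib.Helper2.Frob.card_lt_card_inf_normalizer (R' : Subgroup G)
    R'.isPGroup' _ inf_le_left hne
  obtain ⟨g, hg1, hg2⟩ : ∃ g ∈ ((R' : Subgroup G) ⊓ Subgroup.normalizer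
      ((((R' : Subgroup G) ⊓
      Subgroup.normalizer ((ItoA.sPart r (Cz(w) ⊓ N) hg.comm : Subgroup G) : Set G) :
        Subgroup G) : Subgroup G) : Set G) : Subgroup G),
      g ∉ ((R' : Subgroup G) ⊓
      Subgroup.normalizer ((ItoA.sPart r (Cz(w) ⊓ N) hg.comm : Subgroup G) : Set G) :
        Subgroup G) := by
    by_contra hcon
    push Not at hcon
    exact absurd (Subgroup.card_le_of_le (fun g hg => hcon g hg)) (not_le.2 hlt)
  have hgn : g ∉ Subgroup.normalizer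
      ((ItoA.sPart r (Cz(w) ⊓ N) hg.comm : Subgroup G) : Set G) := fun hn => hg2 ⟨hg1.1, hn⟩
  have hkey : ∀ c ∈ ItoA.sPart r (Cz(w) ⊓ N) hg.comm, g * c * g⁻¹ ∈ Cz(w) →
      c ∈ Subgroup.center G := by
    intro c hcD hgc
    by_contra hcZ
    have hcN : c ∈ N := hcD.1.2
    have e1 : Cz(g * c * g⁻¹) = Cz(w) :=
      hg _ (‹N.Normal›.conj_mem c hcN g) hgc (fun hz => hcZ (conj_center hz))
    have e2 : Cz(c) = Cz(w) := hg _ hcN hcD.1.1 hcZ
    apply hgn
    rw [Subgroup.mem_normalizer_iff]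
    intro x
    constructor
    · rintro ⟨⟨hxC, hxN⟩, k, hk⟩
      refine ⟨⟨?_, ‹N.Normal›.conj_mem x hxN g⟩, k, by rw [conj_pow, hk]; group⟩
      rw [← e1]; exact conj_mem_centralizer_conj g (by rw [e2]; exact hxC)
    · rintro ⟨⟨hxC, hxN⟩, k, hk⟩
      refine ⟨⟨?_, ?_⟩, k, ?_⟩
      · rw [← e1] at hxC
        have h3 := conj_mem_centralizer_conj g⁻¹ hxC
        have ex : g⁻¹ * (g * x * g⁻¹) * g⁻¹⁻¹ = x := by group
        have ec : g⁻¹ * (g * c * g⁻¹) * g⁻¹⁻¹ = c := by group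
        rw [ex, ec, e2] at h3
        exact h3
      · have h3 := ‹N.Normal›.conj_mem _ hxN g⁻¹
        have ex : g⁻¹ * (g * x * g⁻¹) * g⁻¹⁻¹ = x := by group
        rwa [ex] at h3
      · rw [conj_pow] at hk
        have e3 : x ^ r ^ k = g⁻¹ * (g * x ^ r ^ k * g⁻¹) * g := by group
        rw [e3, hk]; group
  -- the conjugate `A₂` of the `r`-part
  have hA₂card : Nat.card ((ItoA.sPart r (Cz(w) ⊓ N) hg.comm).map (MulAut.conj g).toMonoidHom) =
      r ^ (Nat.card (Cz(w) ⊓ N : Subgroup G)).factorization r := by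
    rw [Subgroup.card_map_of_injective (MulAut.conj g).injective, ItoA.card_sPart]
  have hDR₂ : ItoA.sPart r (Cz(w) ⊓ N) hg.comm ≤ ((R' : Subgroup G) ⊓
      Subgroup.normalizer ((ItoA.sPart r (Cz(w) ⊓ N) hg.comm : Subgroup G) : Set G) :
        Subgroup G) := le_inf hR' Subgroup.le_normalizer
  have hA₂R₂ : (ItoA.sPart r (Cz(w) ⊓ N) hg.comm).map (MulAut.conj g).toMonoidHom ≤
      ((R' : Subgroup G) ⊓
      Subgroup.normalizer ((ItoA.sPart r (Cz(w) ⊓ N) hg.comm : Subgroup G) : Set G) :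
        Subgroup G) := by
    rintro _ ⟨c, hc, rfl⟩
    exact (Subgroup.mem_normalizer_iff.1 hg1.2 c).1 (hDR₂ hc)
  have hinf : Cz(w) ⊓ (ItoA.sPart r (Cz(w) ⊓ N) hg.comm).map (MulAut.conj g).toMonoidHom ≤
      ItoA.sPart r (N ⊓ Subgroup.center G) (inf_center_comm N) := by
    rintro x ⟨hxC, c, hc, rfl⟩
    have hxC' : g * c * g⁻¹ ∈ Cz(w) := hxC
    have hcZ : c ∈ Subgroup.center G := hkey c hc hxC'
    have e : g * c * g⁻¹ = c := by
      have := Subgroup.mem_center_iff.1 hcZ g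
      rw [this]; group
    change g * c * g⁻¹ ∈ _
    rw [e]
    exact ⟨⟨hc.1.2, hcZ⟩, hc.2⟩
  have h1 := Small.card_eq_relIndex_mul (inf_le_right :
    Cz(w) ⊓ (ItoA.sPart r (Cz(w) ⊓ N) hg.comm).map (MulAut.conj g).toMonoidHom ≤
      (ItoA.sPart r (Cz(w) ⊓ N) hg.comm).map (MulAut.conj g).toMonoidHom)
  rw [Subgroup.inf_relIndex_right, hA₂card] at h1
  have h2 : Cz(w).relIndex ((ItoA.sPart r (Cz(w) ⊓ N) hg.comm).map (MulAut.conj g).toMonoidHom) ≤
      Cz(w).relIndex ((R' : Subgroup G) ⊓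
      Subgroup.normalizer ((ItoA.sPart r (Cz(w) ⊓ N) hg.comm : Subgroup G) : Set G) :
        Subgroup G) :=
    Subgroup.relIndex_le_of_le_right hA₂R₂ (Subgroup.index_ne_zero_of_finite
      (H := Cz(w).subgroupOf ((R' : Subgroup G) ⊓
      Subgroup.normalizer ((ItoA.sPart r (Cz(w) ⊓ N) hg.comm : Subgroup G) : Set G) :
        Subgroup G)))
  have h3 : Nat.card (Cz(w) ⊓
      (ItoA.sPart r (Cz(w) ⊓ N) hg.comm).map (MulAut.conj g).toMonoidHom : Subgroup G) ≤
      r ^ (Nat.card (N ⊓ Subgroup.center G : Subgroup G)).factorization r := by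
    have h3' := Subgroup.card_le_of_le hinf
    rwa [ItoA.card_sPart] at h3'
  have h4 : r ^ (Nat.card (Cz(w) ⊓ N : Subgroup G)).factorization r ≤
      Cz(w).relIndex ((R' : Subgroup G) ⊓
      Subgroup.normalizer ((ItoA.sPart r (Cz(w) ⊓ N) hg.comm : Subgroup G) : Set G) :
        Subgroup G) * r ^ (Nat.card (N ⊓ Subgroup.center G : Subgroup G)).factorization r := by
    rw [h1]; exact Nat.mul_le_mul h2 h3
  have h5 := relIndex_dvd_sub_one hg r t htr.symm _ (R'.isPGroup'.to_le inf_le_left) hR₂norm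
  have hZD : N ⊓ Subgroup.center G ≤ Cz(w) ⊓ N :=
    le_inf (inf_le_right.trans (Subgroup.center_le_centralizer _)) inf_le_left
  have hZC : N ⊓ Subgroup.center G ≤ Cz(w) :=
    inf_le_right.trans (Subgroup.center_le_centralizer _)
  have hγ : (Nat.card (N ⊓ Subgroup.center G : Subgroup G)).factorization t <
      (Nat.card (Cz(w) ⊓ N : Subgroup G)).factorization t :=
    factorization_lt_of_elt N t (Cz(w) ⊓ N) hZD
      ⟨Small.mem_centralizer_singleton_iff.2 rfl, hwN⟩ hwZ hwt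
  have hr_eq : (Nat.card (Cz(w) ⊓ N : Subgroup G)).factorization r =
      (Nat.card Cz(w)).factorization r := factorization_inf_eq r R hRN _
  have hαpos : (Nat.card (N ⊓ Subgroup.center G : Subgroup G)).factorization r <
      (Nat.card (Cz(w) ⊓ N : Subgroup G)).factorization r := by
    rw [hr_eq]; exact factorization_lt_of_elt N r Cz(w) hZC hc₀C hc₀Z hc₀r
  have h6 := pow_dvd_of_tElt h r R hR hRN t htr hwN hwZ hwt hwN hwZ
  rw [← hr_eq] at h6
  have h7 : (Nat.card (Cz(w) ⊓ N : Subgroup G)).factorization t ≤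
      (Nat.card N).factorization t :=
    (ht.out.pow_dvd_iff_le_factorization Nat.card_pos.ne').1
      ((Nat.ordProj_dvd _ t).trans (Subgroup.card_dvd_of_le inf_le_right))
  exact numeric_beta2 r t _ _ _ _ _ (m.factorization t) hr.out.two_le ht.out.two_le hαpos hγ h4 h5
    h6 (h7.trans hbound)

/-- The relative Itô-type theorem. -/
theorem main
    (r : ℕ) [hr : Fact r.Prime] (R : Sylow r G) (hR : ¬ (R : Subgroup G) ≤ Subgroup.center G)
    (N : Subgroup G) [N.Normal] (hRN : (R : Subgroup G) ≤ N) (m : ℕ)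
    (h : ∀ x ∈ N, (Subgroup.centralizer ({x} : Set G)).index = 1 ∨
      (Subgroup.centralizer ({x} : Set G)).index = m) : Group.IsNilpotent N := by
  by_cases hc : ∀ v ∈ N, (orderOf v).Coprime r → v ∈ Subgroup.center G
  · exact nilpotent_of_coprime_central N r hc
  push Not at hc
  obtain ⟨v, hvN, hvr, hvZ⟩ := hc
  apply nilpotent_of_comm
  obtain ⟨t, ht, j, hjt, hjZ⟩ := ItoA.exists_pow_prime_not_mem (Subgroup.center G) v hvZ
  haveI : Fact t.Prime := ⟨ht⟩
  have htr : t ≠ r := ne_of_coprime_pow ht hvr hjt (fun h1 => hjZ (h1 ▸ Subgroup.one_mem _))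
  have hy₀N : v ^ j ∈ N := N.pow_mem hvN j
  obtain ⟨x₀, hx₀R, hx₀Z⟩ := SetLike.not_le_iff_exists.1 hR
  obtain ⟨u, huR, huN, huZ, hu2⟩ :=
    exists_second_center r (R : Subgroup G) R.isPGroup' N hx₀R (hRN hx₀R) hx₀Z
  have hur := PNil.pElem_of_mem_isPGroup _ R.isPGroup' u huR
  by_cases hα : ∃ y ∈ N, y ∉ Subgroup.center G ∧ (orderOf y).Coprime r ∧ Commute u y
  · obtain ⟨y, hyN, hyZ, hyr, huy⟩ := hα
    have hg : Good N u := good_of_commute h r huN huZ hur hyN hyZ hyr huy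
    obtain ⟨t', ht', j', hj't, hj'Z⟩ := ItoA.exists_pow_prime_not_mem (Subgroup.center G) y hyZ
    haveI : Fact t'.Prime := ⟨ht'⟩
    have ht'r : t' ≠ r :=
      ne_of_coprime_pow ht' hyr hj't (fun h1 => hj'Z (h1 ▸ Subgroup.one_mem _))
    have hle := le_centralizer_of_normalizing h r R hR hRN huN huZ hg R
      (fun g hgR v hv => ItoB.conj_mem_centralizer (hu2 g hgR) hv) t' ht'r (y := y ^ j')
      (Subgroup.pow_mem _ (Small.mem_centralizer_singleton_iff.2 huy) j') (N.pow_mem hyN j')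
      hj'Z hj't
    exact comm_of_le_good hg hle
  · push Not at hα
    have hy₀r : (orderOf (v ^ j)).Coprime r := by
      obtain ⟨k, hk⟩ := hjt
      rw [hk]; exact Nat.Coprime.pow_left _ ((Nat.coprime_primes ht hr.out).2 htr)
    have hg : Good N (v ^ j) := good_of_coprime h r R hR hRN hy₀N hjZ hy₀r
    have hDp : IsPGroup r (ItoA.sPart r (Cz(v ^ j) ⊓ N) hg.comm) := by
      rintro ⟨x, hx, k, hk⟩
      exact ⟨k, Subtype.ext (by simpa using hk)⟩
    obtain ⟨R', hR'⟩ := hDp.exists_le_sylow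
    by_cases hβ : ∀ g ∈ (R' : Subgroup G), ∀ x ∈ Cz(v ^ j), g * x * g⁻¹ ∈ Cz(v ^ j)
    · have hle := le_centralizer_of_normalizing h r R hR hRN hy₀N hjZ hg R' hβ t htr
        (y := v ^ j) (Small.mem_centralizer_singleton_iff.2 rfl) hy₀N hjZ hjt
      exact comm_of_le_good hg hle
    · exfalso
      have hbound := factorization_le_of_typeI h huN huZ t (fun y hyN hyt huy => by
        by_contra hyZ
        obtain ⟨k, hk⟩ := hyt
        exact hα y hyN hyZ
          (by rw [hk]; exact Nat.Coprime.pow_left _ ((Nat.coprime_primes ht hr.out).2 htr)) huy)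
      exact beta2 h r R hR hRN t htr hy₀N hjZ hjt hg R' hR' hβ hbound

end Main

end Cfsg.Agent.Lib.Helper55.RelIto
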